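/-
Extraspecial subgroups with a non-weakly-closed central involution are large (helper18).
-/
import Cfsg.Agent.Lib.LargeX.Setting

set_option autoImplicit false

namespace Cfsg.Agent.Lib.LargeX

open Subgroup Cfsg Cfsg.Agent.Lib.TwoFusion

variable {G : Type*} [Group G]

/-- Abbreviation: the centre of `Q` inside `G`. -/
abbrev Zd (Q : Subgroup G) : Subgroup G := (Subgroup.center ↥Q).map Q.subtype

/-- Abbreviation: the conjugate of `Q`. -/
abbrev Cj (g : G) (Q : Subgroup G) : Subgroup G := Q.map (MulAut.conj g).toMonoidHom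

theorem mem_Cj {g a : G} {Q : Subgroup G} (h : a ∈ Q) : g * a * g⁻¹ ∈ Cj g Q := ⟨a, h, rfl⟩

theorem mem_Cj_iff {g a : G} {Q : Subgroup G} : a ∈ Cj g Q ↔ g⁻¹ * a * g ∈ Q := by
  constructor
  · rintro ⟨b, hb, rfl⟩
    have e : g⁻¹ * (MulAut.conj g).toMonoidHom b * g = b := by
      show g⁻¹ * (g * b * g⁻¹) * g = b
      group
    rwa [e]
  · intro h
    refine ⟨_, h, ?_⟩
    show g * (g⁻¹ * a * g) * g⁻¹ = a
    group

theorem mem_Zd_iff {Q : Subgroup G} {a : G} : a ∈ Zd Q ↔ a ∈ Q ∧ ∀ q ∈ Q, q * a = a * q := by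
  constructor
  · rintro ⟨b, hb, rfl⟩
    refine ⟨b.2, fun q hq => ?_⟩
    have := (Subgroup.mem_center_iff.mp hb) ⟨q, hq⟩
    exact congrArg Subtype.val this
  · rintro ⟨h1, h2⟩
    refine ⟨⟨a, h1⟩, Subgroup.mem_center_iff.mpr fun q => Subtype.ext (h2 q.1 q.2), rfl⟩

/-- An extraspecial subgroup has a central involution. -/
theorem exists_es [Finite G] {Q : Subgroup G} (hE : IsExtraspecial 2 ↥Q) :
    ∃ z, ES Q z ∧ ∀ a, a ∈ Zd Q ↔ a = 1 ∨ a = z := by
  have h1 : Nat.card (Subgroup.center ↥Q) = 2 := hE.2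
  have : Nontrivial (Subgroup.center ↥Q) := by
    apply (Finite.one_lt_card_iff_nontrivial).mp
    rw [h1]
    norm_num
  obtain ⟨t, ht⟩ := exists_ne (1 : Subgroup.center ↥Q)
  have ht1 : ((t : ↥Q) : G) ≠ 1 := by
    intro e
    apply ht
    exact Subtype.ext (Subtype.ext e)
  have hc : ∀ q ∈ Q, q * ((t : ↥Q) : G) = ((t : ↥Q) : G) * q := by
    intro q hq
    have := (Subgroup.mem_center_iff.mp t.2) ⟨q, hq⟩
    exact congrArg Subtype.val this
  have E := ES'.of_extraspecial hE (t : ↥Q).2 ht1 hc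
  refine ⟨_, E, fun a => ?_⟩
  rw [mem_Zd_iff]
  constructor
  · rintro ⟨h2, h3⟩
    exact E.center a h2 h3
  · rintro (rfl | rfl)
    · exact ⟨Q.one_mem, fun q _ => by simp⟩
    · exact ⟨(t : ↥Q).2, hc⟩

/-- The working hypotheses: extraspecial, self-centralizing, and normal in the centralizer of the centre. -/
structure LX (Q : Subgroup G) (z : G) : Prop where
  es : ES Q z
  cQ : ∀ c, (∀ a ∈ Q, c * a = a * c) → c = 1 ∨ c = z
  nQ : ∀ c, c * z = z * c → ∀ a ∈ Q, c * a * c⁻¹ ∈ Q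

/-- From the form of the hypotheses used in statements. -/
theorem LX.of_hyp [Finite G] {Q : Subgroup G} {z : G} (E : ES Q z) (hz : ∀ a, a ∈ Zd Q ↔ a = 1 ∨ a = z)
    (hL2 : centralizer (Q : Set G) = Zd Q) (hL3 : centralizer (Zd Q : Set G) ≤ normalizer (Q : Set G)) : LX Q z := by
  refine ⟨E, fun c hc => ?_, fun c hc a ha => ?_⟩
  · apply (hz c).mp
    rw [← hL2]
    exact Subgroup.mem_centralizer_iff.mpr fun a ha => (hc a ha).symm
  · have h1 : c ∈ centralizer (Zd Q : Set G) := by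
      refine Subgroup.mem_centralizer_iff.mpr fun b hb => ?_
      rcases (hz b).mp hb with rfl | rfl
      · simp
      · exact hc.symm
    exact (Subgroup.mem_normalizer_iff.mp (hL3 h1) a).mp ha

variable {Q : Subgroup G} {z : G}

/-- The orthogonality setting for a conjugate of `z` in `Q`. -/
theorem LX.orthSetting [Finite G] (S : LX Q z) (g : G) (hx : g * z * g⁻¹ ∈ Q) :
    OrthSetting Q (Cj g Q) z (g * z * g⁻¹) := by
  refine ⟨S.es, es_conj S.es g, S.es.z_central, ?_, S.nQ, ?_, hx, ?_, ?_⟩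
  · intro c hc
    have h1 : ∀ a ∈ Q, (g⁻¹ * c * g) * a = a * (g⁻¹ * c * g) := by
      intro a ha
      have h2 := hc _ (mem_Cj (g := g) ha)
      calc (g⁻¹ * c * g) * a = g⁻¹ * (c * (g * a * g⁻¹)) * g := by group
        _ = g⁻¹ * ((g * a * g⁻¹) * c) * g := by rw [h2]
        _ = a * (g⁻¹ * c * g) := by group
    refine mem_Cj_iff.mpr ?_
    rcases S.cQ _ h1 with e | e <;> rw [e]
    · exact Q.one_mem
    · exact S.es.z_mem
  · intro c hc a ha
    refine mem_Cj_iff.mpr ?_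
    have h1 : (g⁻¹ * c * g) * z = z * (g⁻¹ * c * g) := by
      calc (g⁻¹ * c * g) * z = g⁻¹ * (c * (g * z * g⁻¹)) * g := by group
        _ = g⁻¹ * ((g * z * g⁻¹) * c) * g := by rw [hc]
        _ = z * (g⁻¹ * c * g) := by group
    have h2 := S.nQ _ h1 _ (mem_Cj_iff.mp ha)
    have e : g⁻¹ * (c * a * c⁻¹) * g = g⁻¹ * c * g * (g⁻¹ * a * g) * (g⁻¹ * c * g)⁻¹ := by group
    rwa [e]
  · intro h hh a ha
    refine mem_Cj_iff.mpr ?_
    have h1 : (g⁻¹ * h) * z = z * (g⁻¹ * h) := by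
      have h2 : h * z = (g * z * g⁻¹) * h := by
        rw [← hh]
        group
      calc (g⁻¹ * h) * z = g⁻¹ * (h * z) := by group
        _ = g⁻¹ * ((g * z * g⁻¹) * h) := by rw [h2]
        _ = z * (g⁻¹ * h) := by group
    have h2 := S.nQ _ h1 a ha
    have e : g⁻¹ * (h * a * h⁻¹) * g = g⁻¹ * h * a * (g⁻¹ * h)⁻¹ := by group
    rwa [e]
  · exact Nat.card_congr (Subgroup.equivMapOfInjective _ _ (MulAut.conj g).injective).symm.toEquiv

/-- Orthogonality is symmetric. -/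
theorem LX.orth [Finite G] (S : LX Q z) (g : G) (hx : g * z * g⁻¹ ∈ Q) : z ∈ Cj g Q :=
  (S.orthSetting g hx).main

/-- The action of an involution on an invariant subgroup without fixed points inverts it. -/
theorem inv_of_fpf [Finite G] {K : Subgroup G} {t : G} (ht2 : t * t = 1) (ht : ∀ k ∈ K, t * k * t⁻¹ ∈ K)
    (hfpf : ∀ k ∈ K, t * k * t⁻¹ = k → k = 1) {k : G} (hk : k ∈ K) : t * k * t⁻¹ = k⁻¹ := by
  have hinv : t⁻¹ = t := inv_eq_of_mul_eq_one_left ht2
  let f : K → K := fun x => ⟨(x : G)⁻¹ * (t * x * t⁻¹), K.mul_mem (K.inv_mem x.2) (ht x x.2)⟩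
  have hf : Function.Injective f := by
    intro x y hxy
    have h1 : (x : G)⁻¹ * (t * x * t⁻¹) = (y : G)⁻¹ * (t * y * t⁻¹) := congrArg Subtype.val hxy
    have h2 : t * ((y : G) * (x : G)⁻¹) * t⁻¹ = (y : G) * (x : G)⁻¹ := by
      have e1 : (y : G) * (x : G)⁻¹ * (t * x * t⁻¹) = t * y * t⁻¹ := by
        rw [mul_assoc, h1]
        group
      calc t * ((y : G) * (x : G)⁻¹) * t⁻¹ = (t * y * t⁻¹) * (t * x * t⁻¹)⁻¹ := by group
        _ = (y : G) * (x : G)⁻¹ := by rw [← e1]; group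
    have h3 := hfpf _ (K.mul_mem y.2 (K.inv_mem x.2)) h2
    exact (Subtype.ext (mul_inv_eq_one.mp h3)).symm
  have hs := Finite.surjective_of_injective hf
  obtain ⟨x, hx⟩ := hs ⟨k, hk⟩
  have hx' : (x : G)⁻¹ * (t * x * t⁻¹) = k := congrArg Subtype.val hx
  rw [← hx', hinv]
  have e : t * ((x : G)⁻¹ * (t * x * t)) * t = t * (x : G)⁻¹ * t * x * (t * t) := by group
  rw [e, ht2, mul_one]
  have e3 : ((x : G)⁻¹ * (t * x * t))⁻¹ = t⁻¹ * (x : G)⁻¹ * t⁻¹ * x := by group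
  rw [e3, hinv]

/-- Odd and 2-groups meet trivially. -/
theorem eq_one_of_odd_two [Finite G] {K P : Subgroup G} (hK : Odd (Nat.card K)) (hP : IsPGroup 2 P) {a : G}
    (ha : a ∈ K) (hb : a ∈ P) : a = 1 := by
  have h1 : Nat.Coprime (Nat.card K) (Nat.card P) := by
    obtain ⟨n, hn⟩ := (IsPGroup.iff_card (p := 2) (G := P)).mp hP
    rw [hn]
    exact Nat.Coprime.pow_right _ hK.coprime_two_right
  have h2 := (Subgroup.disjoint_of_coprime_natCard h1).le_bot
  exact Subgroup.mem_bot.mp (h2 (Subgroup.mem_inf.mpr ⟨ha, hb⟩))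

/-- `z` acts without fixed points on an odd subgroup normalized by `Q`. -/
theorem LX.fpf_z [Finite G] (S : LX Q z) (hp : IsPGroup 2 Q) {K : Subgroup G} (hK : Odd (Nat.card K))
    (hn : Q ≤ normalizer (K : Set G)) {k : G} (hk : k ∈ K) (hkz : k * z = z * k) : k = 1 := by
  have h1 : ∀ a ∈ Q, k * a = a * k := by
    intro a ha
    have h2 : k * a * k⁻¹ * a⁻¹ ∈ Q := Q.mul_mem (S.nQ k hkz a ha) (Q.inv_mem ha)
    have h3 : k * a * k⁻¹ * a⁻¹ ∈ K := by
      have e : k * a * k⁻¹ * a⁻¹ = k * (a * k⁻¹ * a⁻¹) := by group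
      rw [e]
      exact K.mul_mem hk ((Subgroup.mem_normalizer_iff.mp (hn ha) _).mp (K.inv_mem hk))
    have h4 := eq_one_of_odd_two hK hp h3 h2
    calc k * a = (k * a * k⁻¹ * a⁻¹) * (a * k) := by group
      _ = a * k := by rw [h4, one_mul]
  rcases S.cQ k h1 with e | e
  · exact e
  · exact eq_one_of_odd_two hK hp hk (e ▸ S.es.z_mem)

/-- The conjugates of `z` in `Q` act without fixed points on an odd subgroup normalized by `Q`. -/
theorem LX.fpf_conj [Finite G] (S : LX Q z) (hp : IsPGroup 2 Q) {K : Subgroup G} (hK : Odd (Nat.card K))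
    (hn : Q ≤ normalizer (K : Set G)) (g : G) (hx : g * z * g⁻¹ ∈ Q) {k : G} (hk : k ∈ K)
    (hkx : k * (g * z * g⁻¹) = (g * z * g⁻¹) * k) : k = 1 := by
  have O := S.orthSetting g hx
  have hzP := O.main
  have h1 : k * z * k⁻¹ * z⁻¹ ∈ Cj g Q := (Cj g Q).mul_mem (O.nP k hkx z hzP) ((Cj g Q).inv_mem hzP)
  have h2 : k * z * k⁻¹ * z⁻¹ ∈ K := by
    have e : k * z * k⁻¹ * z⁻¹ = k * (z * k⁻¹ * z⁻¹) := by group
    rw [e]
    exact K.mul_mem hk ((Subgroup.mem_normalizer_iff.mp (hn S.es.z_mem) _).mp (K.inv_mem hk))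
  have hpP : IsPGroup 2 (Cj g Q) := hp.map (MulAut.conj g).toMonoidHom
  have h3 := eq_one_of_odd_two hK hpP h2 h1
  apply S.fpf_z hp hK hn hk
  calc k * z = (k * z * k⁻¹ * z⁻¹) * (z * k) := by group
    _ = z * k := by rw [h3, one_mul]

/-- A self-centralizing extraspecial subgroup, normal in the centralizer of its centre, with a
non-central conjugate of its central involution, normalizes no non-trivial subgroup of odd order. -/
theorem LX.odd_eq_bot [Finite G] (S : LX Q z) (hp : IsPGroup 2 Q) (g : G) (hx : g * z * g⁻¹ ∈ Q)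
    (hne : g * z * g⁻¹ ≠ z) {K : Subgroup G} (hK : Odd (Nat.card K)) (hn : Q ≤ normalizer (K : Set G)) : K = ⊥ := by
  have hzz := S.es.z_sq
  have hz1 := S.es.z_ne
  have hx1 : g * z * g⁻¹ ≠ 1 := by
    intro e
    apply hz1
    have e2 : z = g⁻¹ * (g * z * g⁻¹) * g := by group
    rw [e2, e]
    group
  obtain ⟨q, hq, hqx⟩ := ES'.exists_noncomm S.es hx hx1 hne
  have hqc := ES'.conj_eq S.es hq hx hqx
  have hxx : (g * z * g⁻¹) * (g * z * g⁻¹) = 1 := by
    have e : (g * z * g⁻¹) * (g * z * g⁻¹) = g * (z * z) * g⁻¹ := by group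
    rw [e, hzz]
    group
  generalize hxd : g * z * g⁻¹ = x at *
  have hinv : ∀ t : G, t * t = 1 → t ∈ Q → (∀ k ∈ K, k * t = t * k → k = 1) → ∀ k ∈ K, t * k * t⁻¹ = k⁻¹ := by
    intro t ht htQ hf k hk
    refine inv_of_fpf ht (fun k hk => (Subgroup.mem_normalizer_iff.mp (hn htQ) k).mp hk) ?_ hk
    intro k hk hc
    apply hf k hk
    calc k * t = (t * k * t⁻¹) * t := by rw [hc]
      _ = t * k := by group
  have h1 := hinv z hzz S.es.z_mem (fun k hk hc => S.fpf_z hp hK hn hk hc)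
  have h2 := hinv x hxx hx (fun k hk hc => by
    subst hxd
    exact S.fpf_conj hp hK hn g hx hk hc)
  -- the third involution
  have e3 : (q * g) * z * (q * g)⁻¹ = z * x := by
    rw [← hqc, ← hxd]
    group
  have hzx : z * x ∈ Q := Q.mul_mem S.es.z_mem hx
  rw [Subgroup.eq_bot_iff_forall]
  intro k hk
  apply S.fpf_conj hp hK hn (q * g) (e3 ▸ hzx) hk
  rw [e3]
  have h3 : z * k * z⁻¹ = x * k * x⁻¹ := by rw [h1 k hk, h2 k hk]
  calc k * (z * x) = z * (z⁻¹ * k * z) * x := by group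
    _ = z * (z * k * z⁻¹) * x := by rw [inv_eq_of_mul_eq_one_left hzz]
    _ = z * (x * k * x⁻¹) * x := by rw [h3]
    _ = z * x * k := by group

end Cfsg.Agent.Lib.LargeX
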