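/-
The four-group generated by two orthogonal conjugates of the central involution (helper18).
-/
import Cfsg.Agent.Lib.LargeX.LX
import Cfsg.Prelude.Def_MonsterType

set_option autoImplicit false

namespace Cfsg.Agent.Lib.LargeX

open Subgroup Cfsg Cfsg.Agent.Lib.TwoFusion

variable {G : Type*} [Group G]

/-- The index of a centralizer of an element in a subgroup is the size of the conjugacy orbit. -/
theorem relIndex_centralizer_singleton [Finite G] (K : Subgroup G) (a : G) :
    (centralizer ({a} : Set G)).relIndex K = (Set.range fun k : K => (k : G) * a * (k : G)⁻¹).ncard := by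
  letI : MulAction ↥K G :=
    { smul := fun k b => (k : G) * b * (k : G)⁻¹
      one_smul := fun b => by
        show ((1 : K) : G) * b * ((1 : K) : G)⁻¹ = b
        simp
      mul_smul := fun k l b => by
        show ((k * l : K) : G) * b * ((k * l : K) : G)⁻¹ = (k : G) * ((l : G) * b * (l : G)⁻¹) * (k : G)⁻¹
        simp only [Subgroup.coe_mul]
        group }
  have h1 := MulAction.index_stabilizer ↥K a
  have h2 : MulAction.stabilizer ↥K a = (centralizer ({a} : Set G)).subgroupOf K := by
    ext k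
    rw [MulAction.mem_stabilizer_iff, Subgroup.mem_subgroupOf, Subgroup.mem_centralizer_singleton_iff]
    show (k : G) * a * (k : G)⁻¹ = a ↔ _
    constructor
    · intro e
      calc (k : G) * a = ((k : G) * a * (k : G)⁻¹) * k := by group
        _ = a * k := by rw [e]
    · intro e
      rw [e]
      group
  rw [h2] at h1
  exact h1

/-- Being in the normalizer, from a map into. -/
theorem mem_normalizer_of_map_le [Finite G] {V : Subgroup G} {n : G} (h : ∀ a ∈ V, n * a * n⁻¹ ∈ V) :
    n ∈ normalizer (V : Set G) := by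
  classical
  refine Subgroup.mem_normalizer_iff.mpr fun a => ⟨h a, fun ha => ?_⟩
  let f : V → V := fun b => ⟨n * b * n⁻¹, h b b.2⟩
  have hf : Function.Injective f := by
    intro b c hbc
    have h1 : n * (b : G) * n⁻¹ = n * (c : G) * n⁻¹ := congrArg Subtype.val hbc
    exact Subtype.ext (mul_left_cancel (mul_right_cancel h1))
  obtain ⟨b, hb⟩ := Finite.surjective_of_injective hf ⟨_, ha⟩
  have h1 : n * (b : G) * n⁻¹ = n * a * n⁻¹ := congrArg Subtype.val hb
  have h2 : (b : G) = a := mul_left_cancel (mul_right_cancel h1)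
  exact h2 ▸ b.2

/-- The data of a non-degenerate pair of orthogonal conjugates. -/
structure VPair (z x q p : G) : Prop where
  zz : z * z = 1
  xx : x * x = 1
  zx : z * x = x * z
  z1 : z ≠ 1
  x1 : x ≠ 1
  ne : x ≠ z
  qz : q * z = z * q
  qx : q * x * q⁻¹ = z * x
  px : p * x = x * p
  pz : p * z * p⁻¹ = x * z

namespace VPair

variable {z x q p : G}

theorem mem_iff {V : Subgroup G} (hV : V = closure ({x, z} : Set G)) (D : VPair z x q p) {a : G} :
    a ∈ V ↔ a = 1 ∨ a = x ∨ a = z ∨ a = x * z := by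
  subst hV
  refine ⟨mem_closure_pair D.xx D.zz D.zx, ?_⟩
  have hx : x ∈ closure ({x, z} : Set G) := subset_closure (Or.inl rfl)
  have hz : z ∈ closure ({x, z} : Set G) := subset_closure (Or.inr rfl)
  rintro (rfl | rfl | rfl | rfl)
  · exact Subgroup.one_mem _
  · exact hx
  · exact hz
  · exact Subgroup.mul_mem _ hx hz

/-- Conjugation formulas. -/
theorem q_conj_z (D : VPair z x q p) : q * z * q⁻¹ = z := by
  rw [D.qz]
  group

theorem p_conj_x (D : VPair z x q p) : p * x * p⁻¹ = x := by
  rw [D.px]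
  group

theorem xz_ne_one (D : VPair z x q p) : x * z ≠ 1 := by
  intro e
  apply D.ne
  have h1 : x = x * z * z := by
    rw [mul_assoc, D.zz, mul_one]
  rw [h1, e, one_mul]

theorem xz_ne_x (D : VPair z x q p) : x * z ≠ x := by
  intro e
  exact D.z1 (mul_eq_left.mp e)

theorem xz_ne_z (D : VPair z x q p) : x * z ≠ z := by
  intro e
  exact D.x1 (mul_eq_right.mp e)

/-- The index computation. -/
theorem relIndex_eq [Finite G] (D : VPair z x q p) {V : Subgroup G} (hV : V = closure ({x, z} : Set G)) :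
    (centralizer (V : Set G)).relIndex (normalizer (V : Set G)) = 6 := by
  classical
  have hmem := fun {a : G} => D.mem_iff hV (a := a)
  have hgen : ∀ n : G, n * x * n⁻¹ ∈ V → n * z * n⁻¹ ∈ V → n ∈ normalizer (V : Set G) := by
    intro n h1 h2
    apply mem_normalizer_of_map_le
    intro a ha
    rcases hmem.mp ha with rfl | rfl | rfl | rfl
    · simpa using V.one_mem
    · exact h1
    · exact h2
    · have e : n * (x * z) * n⁻¹ = (n * x * n⁻¹) * (n * z * n⁻¹) := by group
      rw [e]
      exact V.mul_mem h1 h2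
  have hxV : x ∈ V := hmem.mpr (Or.inr (Or.inl rfl))
  have hzV : z ∈ V := hmem.mpr (Or.inr (Or.inr (Or.inl rfl)))
  have hxzV : x * z ∈ V := V.mul_mem hxV hzV
  have hqN : q ∈ normalizer (V : Set G) := hgen q (by
    rw [D.qx, D.zx]
    exact hxzV) (by
    rw [D.q_conj_z]
    exact hzV)
  have hpN : p ∈ normalizer (V : Set G) := hgen p (by
    rw [D.p_conj_x]
    exact hxV) (by
    rw [D.pz]
    exact hxzV)
  have hC : centralizer (V : Set G) = centralizer ({x} : Set G) ⊓ centralizer ({z} : Set G) := by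
    ext c
    rw [Subgroup.mem_inf, Subgroup.mem_centralizer_singleton_iff, Subgroup.mem_centralizer_singleton_iff,
      Subgroup.mem_centralizer_iff]
    constructor
    · intro h
      exact ⟨(h x hxV).symm, (h z hzV).symm⟩
    · rintro ⟨h1, h2⟩ a ha
      rcases hmem.mp ha with rfl | rfl | rfl | rfl
      · simp
      · exact h1.symm
      · exact h2.symm
      · rw [mul_assoc x z c, ← h2, ← mul_assoc, ← h1, mul_assoc]
  have hconjNe : ∀ (k a : G), a ≠ 1 → k * a * k⁻¹ ≠ 1 := by
    intro k a ha e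
    apply ha
    have e2 : a = k⁻¹ * (k * a * k⁻¹) * k := by group
    rw [e2, e]
    group
  have h1 : (centralizer ({z} : Set G)).relIndex (normalizer (V : Set G)) = 3 := by
    rw [relIndex_centralizer_singleton]
    have hs : (Set.range fun k : normalizer (V : Set G) => (k : G) * z * (k : G)⁻¹)
        = (({z, x, x * z} : Finset G) : Set G) := by
      ext a
      simp only [Set.mem_range, Finset.coe_insert, Finset.coe_singleton, Set.mem_insert_iff, Set.mem_singleton_iff]
      constructor
      · rintro ⟨k, rfl⟩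
        have h2 : (k : G) * z * (k : G)⁻¹ ∈ V := (Subgroup.mem_normalizer_iff.mp k.2 z).mp hzV
        rcases hmem.mp h2 with h3 | h3 | h3 | h3
        · exact absurd h3 (hconjNe _ _ D.z1)
        · exact Or.inr (Or.inl h3)
        · exact Or.inl h3
        · exact Or.inr (Or.inr h3)
      · rintro (e | e | e) <;> rw [e]
        · exact ⟨1, by simp⟩
        · refine ⟨⟨q * p, Subgroup.mul_mem _ hqN hpN⟩, ?_⟩
          show (q * p) * z * (q * p)⁻¹ = x
          calc (q * p) * z * (q * p)⁻¹ = q * (p * z * p⁻¹) * q⁻¹ := by group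
            _ = (q * x * q⁻¹) * (q * z * q⁻¹) := by rw [D.pz]; group
            _ = z * x * z := by rw [D.qx, D.q_conj_z]
            _ = x * (z * z) := by rw [D.zx, mul_assoc]
            _ = x := by rw [D.zz, mul_one]
        · exact ⟨⟨p, hpN⟩, D.pz⟩
    rw [hs, Set.ncard_coe_finset]
    rw [Finset.card_eq_three.mpr ⟨z, x, x * z, D.ne.symm, D.xz_ne_z.symm, D.xz_ne_x.symm, rfl⟩]
  have h2 : (centralizer ({x} : Set G)).relIndex (centralizer ({z} : Set G) ⊓ normalizer (V : Set G)) = 2 := by
    rw [relIndex_centralizer_singleton]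
    have hs : (Set.range fun k : ↥(centralizer ({z} : Set G) ⊓ normalizer (V : Set G)) => (k : G) * x * (k : G)⁻¹)
        = (({x, x * z} : Finset G) : Set G) := by
      ext a
      simp only [Set.mem_range, Finset.coe_insert, Finset.coe_singleton, Set.mem_insert_iff, Set.mem_singleton_iff]
      constructor
      · rintro ⟨k, rfl⟩
        have hk := Subgroup.mem_inf.mp k.2
        have h2 : (k : G) * x * (k : G)⁻¹ ∈ V := (Subgroup.mem_normalizer_iff.mp hk.2 x).mp hxV
        rcases hmem.mp h2 with h3 | h3 | h3 | h3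
        · exact absurd h3 (hconjNe _ _ D.x1)
        · exact Or.inl h3
        · exfalso
          have h4 := Subgroup.mem_centralizer_singleton_iff.mp hk.1
          have h5 : (k : G) * z * (k : G)⁻¹ = z := by
            rw [h4]
            group
          have h6 : (k : G) * x * (k : G)⁻¹ = (k : G) * z * (k : G)⁻¹ := h3.trans h5.symm
          exact D.ne (mul_left_cancel (mul_right_cancel h6))
        · exact Or.inr h3
      · rintro (e | e) <;> rw [e]
        · exact ⟨1, by simp⟩
        · refine ⟨⟨q, Subgroup.mem_inf.mpr ⟨Subgroup.mem_centralizer_singleton_iff.mpr D.qz, hqN⟩⟩, ?_⟩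
          show q * x * q⁻¹ = x * z
          rw [D.qx, D.zx]
    rw [hs, Set.ncard_coe_finset]
    rw [Finset.card_eq_two.mpr ⟨x, x * z, D.xz_ne_x.symm, rfl⟩]
  have h3 := Subgroup.relIndex_inf_mul_relIndex (centralizer ({x} : Set G)) (centralizer ({z} : Set G))
    (normalizer (V : Set G))
  rw [h1, h2] at h3
  rw [hC, ← h3]

end VPair

variable {Q : Subgroup G} {z : G}

/-- The pair of conjugating elements. -/
theorem LX.exists_vpair [Finite G] (S : LX Q z) (g : G) (hx : g * z * g⁻¹ ∈ Q) (hne : g * z * g⁻¹ ≠ z) :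
    ∃ q ∈ Q, ∃ p ∈ Cj g Q, VPair z (g * z * g⁻¹) q p := by
  have O := S.orthSetting g hx
  have hx1 : g * z * g⁻¹ ≠ 1 := O.esP.z_ne
  obtain ⟨q, hq, hqx⟩ := ES'.exists_noncomm S.es hx hx1 hne
  obtain ⟨p, hp, hpz⟩ := ES'.exists_noncomm O.esP O.main S.es.z_ne hne.symm
  refine ⟨q, hq, p, hp, ⟨S.es.z_sq, O.esP.z_sq, O.zx, S.es.z_ne, hx1, hne, S.es.z_central q hq,
    ES'.conj_eq S.es hq hx hqx, O.esP.z_central p hp, ES'.conj_eq O.esP hp O.main hpz⟩⟩

/-- The join of the centres of `Q` and of its conjugate. -/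
theorem Zd_sup_eq {z : G} (hz : ∀ a, a ∈ Zd Q ↔ a = 1 ∨ a = z) (g : G) :
    Zd Q ⊔ Cj g (Zd Q) = closure ({g * z * g⁻¹, z} : Set G) := by
  apply le_antisymm
  · apply sup_le
    · intro a ha
      rcases (hz a).mp ha with rfl | rfl
      · exact Subgroup.one_mem _
      · exact subset_closure (Or.inr rfl)
    · rintro _ ⟨a, ha, rfl⟩
      rcases (hz a).mp ha with rfl | rfl
      · simpa using Subgroup.one_mem _
      · exact subset_closure (Or.inl rfl)
  · rw [closure_le]
    rintro a (rfl | rfl)
    · exact (le_sup_right : Cj g (Zd Q) ≤ _) (mem_Cj ((hz z).mpr (Or.inr rfl)))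
    · exact (le_sup_left : Zd Q ≤ _) ((hz _).mpr (Or.inr rfl))

/-- Summary theorem: the three conclusions. -/
theorem weakly_not_closed [Finite G] (hL1 : IsExtraspecial 2 ↥Q) (hL2 : centralizer (Q : Set G) = Zd Q)
    (hL3 : centralizer (Zd Q : Set G) ≤ normalizer (Q : Set G)) (g : G)
    (hg : g ∉ normalizer (Zd Q : Set G)) (hZg : Cj g (Zd Q) ≤ Q) :
    Zd Q ≤ Cj g Q ∧ (centralizer ((Zd Q ⊔ Cj g (Zd Q) : Subgroup G) : Set G)).relIndex
      (normalizer ((Zd Q ⊔ Cj g (Zd Q) : Subgroup G) : Set G)) = 6 ∧ IsLargeExtraspecial Q := by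
  obtain ⟨z, E, hz⟩ := exists_es hL1
  have S := LX.of_hyp E hz hL2 hL3
  have hp : IsPGroup 2 Q := hL1.1.1
  have hzZ : z ∈ Zd Q := (hz z).mpr (Or.inr rfl)
  have hx : g * z * g⁻¹ ∈ Q := hZg (mem_Cj hzZ)
  have hne : g * z * g⁻¹ ≠ z := by
    intro e
    apply hg
    refine mem_normalizer_of_map_le (fun a ha => ?_)
    rcases (hz a).mp ha with rfl | rfl
    · simpa using (Zd Q).one_mem
    · rw [e]
      exact hzZ
  obtain ⟨q, _, p, _, D⟩ := S.exists_vpair g hx hne
  refine ⟨?_, D.relIndex_eq (Zd_sup_eq hz g), hL1, hL2, hL3, fun K hK hn => S.odd_eq_bot hp g hx hne hK hn⟩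
  intro a ha
  rcases (hz a).mp ha with rfl | rfl
  · exact Subgroup.one_mem _
  · exact S.orth g hx

end Cfsg.Agent.Lib.LargeX
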