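/-
Singular subgroups in the large extraspecial setting (helper18).
-/
import Cfsg.Agent.Lib.LargeX.Setting

set_option autoImplicit false

namespace Cfsg.Agent.Lib.LargeX

open Subgroup Cfsg Cfsg.Agent.Lib.TwoFusion

variable {G : Type*} [Group G]

/-- A singular subgroup. -/
structure Sing (z : G) (U : Subgroup G) : Prop where
  L : Large z
  sq : ∀ u ∈ U, u * u = 1
  cj : ∀ u ∈ U, u ≠ 1 → ∃ g : G, g * z * g⁻¹ = u
  orth : ∀ u ∈ U, ∀ v ∈ U, u ≠ 1 → v ≠ 1 → v ∈ O2C u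

namespace Sing

variable {z : G} {U : Subgroup G} [Finite G]

theorem large (S : Sing z U) {u : G} (hu : u ∈ U) (h1 : u ≠ 1) : Large u := by
  obtain ⟨g, rfl⟩ := S.cj u hu h1
  exact S.L.conj g

theorem le_O2C (S : Sing z U) {u : G} (hu : u ∈ U) (h1 : u ≠ 1) : U ≤ O2C u := by
  intro v hv
  by_cases h : v = 1
  · rw [h]
    exact (O2C u).one_mem
  · exact S.orth u hu v hv h1 h

/-- The key inclusion. -/
theorem inter_le (S : Sing z U) {a b e : G} (ha : a ∈ U) (hb : b ∈ U) (ha1 : a ≠ 1) (hb1 : b ≠ 1) (hab : a ≠ b)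
    (h1 : e ∈ O2C a) (h2 : e ∈ O2C b) : e ∈ O2C (a * b) := by
  have E := (S.large ha ha1).es
  obtain ⟨q, hq, hqb⟩ := ES'.exists_noncomm E (S.le_O2C ha ha1 hb) hb1 hab.symm
  have h3 : q * b * q⁻¹ = a * b := ES'.conj_eq E hq (S.le_O2C ha ha1 hb) hqb
  have h4 : q⁻¹ * e * q⁻¹⁻¹ ∈ O2C b := by
    by_cases hc : q⁻¹ * e = e * q⁻¹
    · have e1 : q⁻¹ * e * q⁻¹⁻¹ = e := by
        rw [hc]
        group
      rwa [e1]
    · rw [ES'.conj_eq E ((O2C a).inv_mem hq) h1 hc]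
      exact (O2C b).mul_mem (S.le_O2C hb hb1 ha) h2
  have h5 := O2C_conj_le q b h4
  rw [h3] at h5
  have e2 : q * (q⁻¹ * e * q⁻¹⁻¹) * q⁻¹ = e := by group
  rwa [e2] at h5

/-- Conjugation by the core of a singular point keeps `U` invariant. -/
theorem conj_mem (S : Sing z U) {u g v : G} (hu : u ∈ U) (h1 : u ≠ 1) (hg : g ∈ O2C u) (hv : v ∈ U) :
    g * v * g⁻¹ ∈ U := by
  by_cases hc : g * v = v * g
  · rw [hc]
    simpa using hv
  · rw [ES'.conj_eq (S.large hu h1).es hg (S.le_O2C hu h1 hv) hc]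
    exact U.mul_mem hu hv

theorem comm_mem (S : Sing z U) {u g x : G} (hu : u ∈ U) (h1 : u ≠ 1) (hg : g ∈ O2C u) (hx : x ∈ O2C u) :
    g * x * g⁻¹ * x⁻¹ ∈ U := by
  rcases (S.large hu h1).es.comm g hg x hx with e | e <;> rw [e]
  · exact U.one_mem
  · exact hu

end Sing

/-- Induction over the join of the cores. -/
theorem LU_induction {U : Subgroup G} {motive : G → Prop} {g : G}
    (hg : g ∈ ⨆ u ∈ ((U : Set G) \ {1}), O2C u)
    (mem : ∀ u ∈ U, u ≠ 1 → ∀ x ∈ O2C u, motive x) (one : motive 1)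
    (mul : ∀ x y, motive x → motive y → motive (x * y)) : motive g := by
  rw [iSup_subtype'] at hg
  exact Subgroup.iSup_induction (C := motive) _ hg (fun i x hx => mem i.1 i.2.1 i.2.2 x hx) one mul

theorem le_LU {U : Subgroup G} {u : G} (hu : u ∈ U) (h1 : u ≠ 1) : O2C u ≤ ⨆ u ∈ ((U : Set G) \ {1}), O2C u :=
  le_iSup₂_of_le u ⟨hu, h1⟩ le_rfl

theorem QU_le {U : Subgroup G} {u : G} (hu : u ∈ U) (h1 : u ≠ 1) : (⨅ u ∈ ((U : Set G) \ {1}), O2C u) ≤ O2C u :=
  iInf₂_le_of_le u ⟨hu, h1⟩ le_rfl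

theorem mem_QU {U : Subgroup G} {x : G} : x ∈ (⨅ u ∈ ((U : Set G) \ {1}), O2C u) ↔ ∀ u ∈ U, u ≠ 1 → x ∈ O2C u := by
  simp only [Subgroup.mem_iInf]
  constructor
  · intro h u hu h1
    exact h u ⟨hu, h1⟩
  · intro h u hu
    exact h u hu.1 hu.2

namespace Sing

variable {z : G} {U : Subgroup G} [Finite G]

/-- A generating set is enough. -/
theorem qu_eq (S : Sing z U) {T : Set G} (hT : closure T = U) (hT1 : (1 : G) ∉ T) :
    (⨅ u ∈ ((U : Set G) \ {1}), O2C u) = ⨅ t ∈ T, O2C t := by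
  have hTU : ∀ t ∈ T, t ∈ U := fun t ht => hT ▸ Subgroup.subset_closure ht
  apply le_antisymm
  · refine le_iInf₂ fun t ht => ?_
    exact QU_le (hTU t ht) (fun e => hT1 (e ▸ ht))
  · refine le_iInf₂ fun u hu => ?_
    have key : ∀ v ∈ closure T, v = 1 ∨ (⨅ t ∈ T, O2C t) ≤ O2C v := by
      intro v hv
      refine Subgroup.closure_induction (p := fun v _ => v = 1 ∨ (⨅ t ∈ T, O2C t) ≤ O2C v) ?_ ?_ ?_ ?_ hv
      · intro t ht
        exact Or.inr (iInf₂_le t ht)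
      · exact Or.inl rfl
      · intro a b ha hb iha ihb
        have haU : a ∈ U := hT ▸ ha
        have hbU : b ∈ U := hT ▸ hb
        rcases iha with rfl | iha
        · rw [one_mul]
          exact ihb
        rcases ihb with rfl | ihb
        · rw [mul_one]
          exact Or.inr iha
        by_cases ha1 : a = 1
        · rw [ha1, one_mul]
          exact Or.inr ihb
        by_cases hb1 : b = 1
        · rw [hb1, mul_one]
          exact Or.inr iha
        by_cases hab : a = b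
        · left
          rw [← hab]
          exact S.sq a haU
        · right
          intro e he
          exact S.inter_le haU hbU ha1 hb1 hab (iha he) (ihb he)
      · intro a ha iha
        have haU : a ∈ U := hT ▸ ha
        rwa [inv_eq_of_mul_eq_one_left (S.sq a haU)]
    rcases key u (hT ▸ hu.1) with h | h
    · exact absurd h hu.2
    · exact h

/-- Elements of `LU` act on `U` and trivially on `QU/U`. -/
theorem LU_act (S : Sing z U) {g : G} (hg : g ∈ ⨆ u ∈ ((U : Set G) \ {1}), O2C u) :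
    (∀ v ∈ U, g * v * g⁻¹ ∈ U) ∧ ∀ x ∈ (⨅ u ∈ ((U : Set G) \ {1}), O2C u), g * x * g⁻¹ * x⁻¹ ∈ U := by
  refine LU_induction (U := U)
    (motive := fun g => (∀ v ∈ U, g * v * g⁻¹ ∈ U) ∧
      ∀ x ∈ (⨅ u ∈ ((U : Set G) \ {1}), O2C u), g * x * g⁻¹ * x⁻¹ ∈ U) hg ?_ ?_ ?_
  · intro u hu h1 g hg
    exact ⟨fun v hv => S.conj_mem hu h1 hg hv, fun x hx => S.comm_mem hu h1 hg (mem_QU.mp hx u hu h1)⟩
  · refine ⟨fun v hv => ?_, fun x _ => ?_⟩
    · simpa using hv
    · simp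
  · intro a b ha hb
    refine ⟨fun v hv => ?_, fun x hx => ?_⟩
    · have e : a * b * v * (a * b)⁻¹ = a * (b * v * b⁻¹) * a⁻¹ := by group
      rw [e]
      exact ha.1 _ (hb.1 v hv)
    · have e : a * b * x * (a * b)⁻¹ * x⁻¹ = (a * (b * x * b⁻¹ * x⁻¹) * a⁻¹) * (a * x * a⁻¹ * x⁻¹) := by group
      rw [e]
      exact U.mul_mem (ha.1 _ (hb.2 x hx)) (ha.2 x hx)

/-- Transitivity on cosets of `U`. -/
theorem transitive (S : Sing z U) {x u : G} (hx : x ∈ (⨅ u ∈ ((U : Set G) \ {1}), O2C u)) (hxU : x ∉ U) (hu : u ∈ U) :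
    ∃ g ∈ (⨆ u ∈ ((U : Set G) \ {1}), O2C u) ⊓ centralizer (U : Set G), g * x * g⁻¹ = x * u := by
  by_cases h1 : u = 1
  · refine ⟨1, (Subgroup.one_mem _), ?_⟩
    rw [h1]
    simp
  · have E := (S.large hu h1).es
    have hxu := mem_QU.mp hx u hu h1
    obtain ⟨c, hc, hcU, hcx⟩ := ES'.exists_of_not_mem E (S.le_O2C hu h1) hu hxu hxU
    refine ⟨c, Subgroup.mem_inf.mpr ⟨le_LU hu h1 hc, Subgroup.mem_centralizer_iff.mpr fun b hb => (hcU b hb).symm⟩, ?_⟩
    have h2 : x * c * x⁻¹ * c⁻¹ = u := by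
      rw [hcx]
      group
    have h3 : c * x * c⁻¹ * x⁻¹ = u := by
      have h4 : c * x * c⁻¹ * x⁻¹ = (x * c * x⁻¹ * c⁻¹)⁻¹ := by group
      rw [h4, h2]
      exact inv_eq_of_mul_eq_one_left E.z_sq
    calc c * x * c⁻¹ = (c * x * c⁻¹ * x⁻¹) * x := by group
      _ = u * x := by rw [h3]
      _ = x * u := (E.z_central x hxu).symm

end Sing

end Cfsg.Agent.Lib.LargeX
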