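/-
The full automorphism group of a singular subgroup is induced (helper18).
-/
import Cfsg.Agent.Lib.LargeX.Singular

set_option autoImplicit false

namespace Cfsg.Agent.Lib.LargeX

open Subgroup Cfsg Cfsg.Agent.Lib.TwoFusion Matrix

variable {G : Type*} [Group G]

/-- Coordinates on a finite commutative group of exponent two. -/
theorem exists_coord_comm {N : Type*} [CommGroup N] [Finite N] {n : ℕ} (h2 : ∀ a : N, a * a = 1)
    (hcard : Nat.card N = 2 ^ n) :
    ∃ ψ : (Fin n → ZMod 2) → N, (∀ v w, ψ (v + w) = ψ v * ψ w) ∧ Function.Bijective ψ := by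
  have hp' : ∀ x : Additive N, 2 • x = 0 := fun x => by
    show Additive.ofMul ((Additive.toMul x) ^ 2) = 0
    rw [pow_two, h2]
    rfl
  letI : Module (ZMod 2) (Additive N) := AddCommGroup.zmodModule hp'
  haveI : Fact (Nat.Prime 2) := ⟨Nat.prime_two⟩
  haveI : Module.Finite (ZMod 2) (Additive N) := Module.Finite.of_finite
  have h1 : Nat.card (Additive N) = 2 ^ Module.finrank (ZMod 2) (Additive N) := by
    have := Module.natCard_eq_pow_finrank (K := ZMod 2) (V := Additive N)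
    rwa [Nat.card_zmod] at this
  have h3 : Nat.card (Additive N) = 2 ^ n := hcard
  have h4 : Module.finrank (ZMod 2) (Additive N) = n :=
    Nat.pow_right_injective (le_refl 2) (h1.symm.trans h3)
  let b := Module.finBasisOfFinrankEq (ZMod 2) (Additive N) h4
  refine ⟨fun v => Additive.toMul (b.equivFun.symm v), fun v w => ?_, ?_⟩
  · simp only [map_add]
    rfl
  · exact Additive.toMul.bijective.comp b.equivFun.symm.bijective

/-- Coordinates on an elementary abelian subgroup. -/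
theorem exists_coord {U : Subgroup G} [Finite G] {n : ℕ} (h2 : ∀ u ∈ U, u * u = 1) (hcard : Nat.card ↥U = 2 ^ n) :
    ∃ ι : (Fin n → ZMod 2) → G, (∀ v w, ι (v + w) = ι v * ι w) ∧ Function.Injective ι ∧ (∀ v, ι v ∈ U) ∧
      ∀ u ∈ U, ∃ v, ι v = u := by
  have hsqU : ∀ a : ↥U, a * a = 1 := fun a => Subtype.ext (h2 a.1 a.2)
  letI : CommGroup ↥U :=
    { (inferInstance : Group ↥U) with
      mul_comm := fun a b => by
        have h3 : (a * b) * (a * b) = 1 := hsqU _
        have h4 := inv_eq_of_mul_eq_one_left h3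
        rw [_root_.mul_inv_rev, inv_eq_of_mul_eq_one_left (hsqU a), inv_eq_of_mul_eq_one_left (hsqU b)] at h4
        exact h4.symm }
  obtain ⟨ψ, h1, h3⟩ := exists_coord_comm (N := ↥U) hsqU hcard
  refine ⟨fun v => (ψ v : G), fun v w => ?_, ?_, fun v => (ψ v).2, fun u hu => ?_⟩
  · simp only [h1]
    rfl
  · exact Subtype.val_injective.comp h3.1
  · obtain ⟨v, hv⟩ := h3.2 ⟨u, hu⟩
    exact ⟨v, congrArg Subtype.val hv⟩

/-- Generation of the general linear group over the field with two elements by elementary matrices. -/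
theorem gl2_induction {n : ℕ} (P : Matrix (Fin n) (Fin n) (ZMod 2) → Prop) (hone : P 1)
    (hmul : ∀ A B, P A → P B → P (A * B))
    (ht : ∀ i j : Fin n, i ≠ j → P (transvection i j 1)) (M : Matrix (Fin n) (Fin n) (ZMod 2)) (hM : det M ≠ 0) : P M := by
  refine diagonal_transvection_induction_of_det_ne_zero P M hM ?_ ?_ fun A B _ _ hA hB => hmul A B hA hB
  · intro D hD
    have h1 : D = 1 := by
      funext i
      have h2 : D i ≠ 0 := by
        intro h3
        apply hD
        rw [det_diagonal]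
        exact Finset.prod_eq_zero (Finset.mem_univ i) h3
      have key : ∀ a : ZMod 2, a ≠ 0 → a = 1 := by decide
      exact key _ h2
    rw [h1]
    have h3 : (diagonal (1 : Fin n → ZMod 2)) = 1 := diagonal_one
    rw [h3]
    exact hone
  · intro t
    have key : ∀ a : ZMod 2, a = 0 ∨ a = 1 := by decide
    show P (transvection t.i t.j t.c)
    rcases key t.c with h | h
    · rw [h, transvection_zero]
      exact hone
    · rw [h]
      exact ht _ _ t.hij

theorem transvection_mulVec {n : ℕ} (i j : Fin n) (v : Fin n → ZMod 2) :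
    (transvection i j (1 : ZMod 2)) *ᵥ v = v + v j • Pi.single i 1 := by
  classical
  funext k
  simp only [transvection, add_mulVec, one_mulVec, Pi.add_apply, smul_eq_mul, Pi.smul_apply, Pi.single_apply]
  congr 1
  simp only [mulVec, dotProduct, single_apply]
  by_cases hk : k = i
  · subst hk
    simp
  · simp [Ne.symm hk, hk]

/-- All elementary transvections are induced. -/
theorem Sing.exists_transvection {z : G} {U : Subgroup G} [Finite G] (S : Sing z U) {n : ℕ}
    {ι : (Fin n → ZMod 2) → G} (hadd : ∀ v w, ι (v + w) = ι v * ι w) (hinj : Function.Injective ι)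
    (hU : ∀ v, ι v ∈ U) (hsurj : ∀ u ∈ U, ∃ v, ι v = u) (i j : Fin n) (hij : i ≠ j) :
    ∃ g ∈ ⨆ u ∈ ((U : Set G) \ {1}), O2C u, ∀ v, g * ι v * g⁻¹ = ι ((transvection i j (1 : ZMod 2)) *ᵥ v) := by
  classical
  have h0 : ι 0 = 1 := by
    have := hadd 0 0
    rw [add_zero] at this
    exact (mul_eq_left.mp this.symm)
  let ei : Fin n → ZMod 2 := Pi.single i 1
  let ej : Fin n → ZMod 2 := Pi.single j 1
  have hne : ∀ k : Fin n, ι (Pi.single k 1) ≠ 1 := by
    intro k h
    rw [← h0] at h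
    have h1 := congrFun (hinj h) k
    simp at h1
  let u := ι ei
  have hu1 : u ≠ 1 := hne i
  have huU : u ∈ U := hU _
  have L := S.large huU hu1
  have hle := S.le_O2C huU hu1
  -- the hyperplane
  let A : Subgroup G :=
    { carrier := {a | ∃ v, v j = 0 ∧ ι v = a}
      mul_mem' := by
        rintro _ _ ⟨v, hv, rfl⟩ ⟨w, hw, rfl⟩
        exact ⟨v + w, by simp [hv, hw], hadd v w⟩
      one_mem' := ⟨0, rfl, h0⟩
      inv_mem' := by
        rintro _ ⟨v, hv, rfl⟩
        refine ⟨v, hv, ?_⟩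
        have := S.sq _ (hU v)
        exact (inv_eq_of_mul_eq_one_left this).symm }
  have hAU : A ≤ U := by
    rintro _ ⟨v, _, rfl⟩
    exact hU v
  have huA : u ∈ A := ⟨ei, by simp [ei, Pi.single_apply, hij.symm], rfl⟩
  have haA : ι ej ∉ A := by
    rintro ⟨v, hv, h⟩
    have h1 := hinj h
    rw [h1] at hv
    simp [ej] at hv
  obtain ⟨c, hc, hcA, hca⟩ := ES'.exists_of_not_mem L.es (hAU.trans hle) huA (hle (hU ej)) haA
  refine ⟨c, le_LU huU hu1 hc, fun v => ?_⟩
  rw [transvection_mulVec]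
  have hz : c * ι ej * c⁻¹ = ι ej * u := by
    have h2 : ι ej * c * (ι ej)⁻¹ * c⁻¹ = u := by
      rw [hca]
      group
    have h3 : c * ι ej * c⁻¹ * (ι ej)⁻¹ = u := by
      have h4 : c * ι ej * c⁻¹ * (ι ej)⁻¹ = (ι ej * c * (ι ej)⁻¹ * c⁻¹)⁻¹ := by group
      rw [h4, h2]
      exact inv_eq_of_mul_eq_one_left L.es.z_sq
    calc c * ι ej * c⁻¹ = (c * ι ej * c⁻¹ * (ι ej)⁻¹) * ι ej := by group
      _ = u * ι ej := by rw [h3]
      _ = ι ej * u := (L.es.z_central _ (hle (hU ej))).symm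
  have key : ∀ a : ZMod 2, a = 0 ∨ a = 1 := by decide
  have hcomm : ∀ a ∈ A, c * a * c⁻¹ = a := by
    intro a ha
    rw [hcA a ha]
    group
  rcases key (v j) with hv | hv
  · rw [hv, zero_smul, add_zero]
    exact hcomm _ ⟨v, hv, rfl⟩
  · rw [hv, one_smul]
    -- decompose
    have hd : v = (v + ej) + ej := by
      funext k
      have key2 : ∀ a b : ZMod 2, a = a + b + b := by decide
      exact key2 _ _
    have hw : (v + ej) j = 0 := by
      simp [ej, hv]
      decide
    have h5 : c * ι v * c⁻¹ = ι (v + ej) * (ι ej * u) := by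
      have e : ι v = ι (v + ej) * ι ej := by
        rw [← hadd, ← hd]
      rw [e]
      calc c * (ι (v + ej) * ι ej) * c⁻¹ = (c * ι (v + ej) * c⁻¹) * (c * ι ej * c⁻¹) := by group
        _ = ι (v + ej) * (ι ej * u) := by rw [hcomm _ ⟨_, hw, rfl⟩, hz]
    rw [h5, ← mul_assoc, ← hadd, ← hd]
    exact (hadd v ei).symm

/-- The full automorphism group of a singular subgroup is induced. -/
theorem Sing.exists_aut {z : G} {U : Subgroup G} [Finite G] (S : Sing z U) {n : ℕ} (hcard : Nat.card ↥U = 2 ^ n)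
    (φ : ↥U ≃* ↥U) :
    ∃ g ∈ ⨆ u ∈ ((U : Set G) \ {1}), O2C u, ∀ u : ↥U, g * (u : G) * g⁻¹ = ((φ u : ↥U) : G) := by
  classical
  obtain ⟨ι, hadd, hinj, hU, hsurj⟩ := exists_coord S.sq hcard
  -- the matrix of `φ`
  have hf : ∀ φ : ↥U ≃* ↥U, ∃ L : (Fin n → ZMod 2) →ₗ[ZMod 2] (Fin n → ZMod 2), ∀ v, ι (L v) = φ ⟨ι v, hU v⟩ := by
    intro φ
    choose f hf using fun v => hsurj _ (φ ⟨ι v, hU v⟩).2
    let F : (Fin n → ZMod 2) →+ (Fin n → ZMod 2) := AddMonoidHom.mk' f (by
      intro a b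
      apply hinj
      rw [hadd, hf, hf, hf]
      have : (⟨ι (a + b), hU (a + b)⟩ : ↥U) = ⟨ι a, hU a⟩ * ⟨ι b, hU b⟩ := Subtype.ext (hadd a b)
      rw [this, map_mul]
      rfl)
    exact ⟨F.toZModLinearMap 2, hf⟩
  obtain ⟨L, hL⟩ := hf φ
  obtain ⟨L', hL'⟩ := hf φ.symm
  have hLL : L ∘ₗ L' = LinearMap.id := by
    apply LinearMap.ext
    intro v
    apply hinj
    show ι (L (L' v)) = ι v
    rw [hL]
    have e : (⟨ι (L' v), hU (L' v)⟩ : ↥U) = φ.symm ⟨ι v, hU v⟩ := Subtype.ext (hL' v)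
    rw [e, MulEquiv.apply_symm_apply]
  let M := LinearMap.toMatrix' L
  let M' := LinearMap.toMatrix' L'
  have hMM : M * M' = 1 := by
    show LinearMap.toMatrix' L * LinearMap.toMatrix' L' = 1
    rw [← LinearMap.toMatrix'_comp, hLL, LinearMap.toMatrix'_id]
  have hdet : det M ≠ 0 := by
    intro h
    have := congrArg det hMM
    rw [det_mul, h, zero_mul, det_one] at this
    exact zero_ne_one this
  have key := gl2_induction (fun M => ∃ g ∈ ⨆ u ∈ ((U : Set G) \ {1}), O2C u, ∀ v, g * ι v * g⁻¹ = ι (M *ᵥ v))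
    ⟨1, Subgroup.one_mem _, fun v => by simp⟩
    (by
      rintro A B ⟨a, ha, ha'⟩ ⟨b, hb, hb'⟩
      refine ⟨a * b, Subgroup.mul_mem _ ha hb, fun v => ?_⟩
      calc a * b * ι v * (a * b)⁻¹ = a * (b * ι v * b⁻¹) * a⁻¹ := by group
        _ = ι ((A * B) *ᵥ v) := by rw [hb', ha', mulVec_mulVec])
    (fun i j hij => S.exists_transvection hadd hinj hU hsurj i j hij) M hdet
  obtain ⟨g, hg, hg'⟩ := key
  refine ⟨g, hg, fun u => ?_⟩
  obtain ⟨v, hv⟩ := hsurj u.1 u.2
  have e : u = ⟨ι v, hU v⟩ := Subtype.ext hv.symm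
  rw [e]
  show g * ι v * g⁻¹ = _
  rw [hg', ← hL]
  congr 1
  exact LinearMap.toMatrix'_mulVec L v

end Cfsg.Agent.Lib.LargeX
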