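/-
From the elementwise description to `IsExtraspecial` (helper18).
-/
import Cfsg.Agent.Lib.LargeX.Four
import Cfsg.Agent.Lib.Coprime.Action

set_option autoImplicit false

namespace Cfsg.Agent.Lib.LargeX

open Subgroup Cfsg Cfsg.Agent.Lib.TwoFusion

open scoped commutatorElement

variable {G : Type*} [Group G]

/-- The elementwise description gives an extraspecial group. -/
theorem ES.isExtraspecial [Finite G] {R : Subgroup G} {z : G} (E : ES R z) (hne : ∃ a ∈ R, ∃ b ∈ R, a * b ≠ b * a) :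
    IsExtraspecial 2 ↥R := by
  haveI : Fact (Nat.Prime 2) := ⟨Nat.prime_two⟩
  classical
  let zt : ↥R := ⟨z, E.z_mem⟩
  have hzt1 : zt ≠ 1 := fun e => E.z_ne (congrArg Subtype.val e)
  have hcent : ∀ t : ↥R, t ∈ Subgroup.center ↥R ↔ t = 1 ∨ t = zt := by
    intro t
    rw [Subgroup.mem_center_iff]
    constructor
    · intro h
      rcases E.center t.1 t.2 (fun q hq => congrArg Subtype.val (h ⟨q, hq⟩)) with e | e
      · exact Or.inl (Subtype.ext e)
      · exact Or.inr (Subtype.ext e)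
    · rintro (rfl | rfl) g
      · simp
      · exact Subtype.ext (E.z_central g.1 g.2)
  have hp : IsPGroup 2 ↥R := by
    intro t
    refine ⟨2, ?_⟩
    apply Subtype.ext
    have h1 : (t : G) ^ (2 ^ 2) = ((t : G) * t) * ((t : G) * t) := by
      rw [show (2 : ℕ) ^ 2 = 2 + 2 by norm_num, pow_add, pow_two]
    show ((t ^ (2 ^ 2) : ↥R) : G) = 1
    rw [Subgroup.coe_pow, h1]
    rcases E.sq t.1 t.2 with e | e <;> rw [e]
    · simp
    · exact E.z_sq
  have hz_center : zt ∈ Subgroup.center ↥R := (hcent zt).mpr (Or.inr rfl)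
  have hcomm : commutator ↥R = Subgroup.center ↥R := by
    apply le_antisymm
    · rw [commutator_def, Subgroup.commutator_le]
      intro a _ b _
      rcases E.comm a.1 a.2 b.1 b.2 with e | e
      · have : ⁅a, b⁆ = 1 := Subtype.ext (by
          show (a : G) * b * (a : G)⁻¹ * (b : G)⁻¹ = 1
          exact e)
        rw [this]
        exact Subgroup.one_mem _
      · have : ⁅a, b⁆ = zt := Subtype.ext (by
          show (a : G) * b * (a : G)⁻¹ * (b : G)⁻¹ = z
          exact e)
        rw [this]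
        exact hz_center
    · intro t ht
      rcases (hcent t).mp ht with rfl | rfl
      · exact Subgroup.one_mem _
      · obtain ⟨a, ha, b, hb, hab⟩ := hne
        have h1 := ES'.comm_eq E ha hb hab
        have : ⁅(⟨a, ha⟩ : ↥R), (⟨b, hb⟩ : ↥R)⁆ = zt := Subtype.ext h1
        rw [← this]
        exact Subgroup.commutator_mem_commutator (Subgroup.mem_top _) (Subgroup.mem_top _)
  have hfr : frattini ↥R = Subgroup.center ↥R := by
    apply le_antisymm
    · refine Cfsg.Agent.Lib.Basic.frattini_le_of_commutator_le_of_pow_mem Nat.prime_two _ hcomm.le fun t => ?_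
      rw [pow_two]
      rcases E.sq t.1 t.2 with e | e
      · have : t * t = 1 := Subtype.ext e
        rw [this]
        exact Subgroup.one_mem _
      · have : t * t = zt := Subtype.ext e
        rw [this]
        exact hz_center
    · rw [← hcomm]
      haveI : Group.IsNilpotent ↥R := hp.isNilpotent
      exact Cfsg.Agent.Lib.Basic.commutator_le_frattini_of_isNilpotent
  refine ⟨⟨hp, hfr, hcomm⟩, ?_⟩
  rw [Nat.card_eq_two_iff]
  refine ⟨1, ⟨zt, hz_center⟩, ?_, ?_⟩
  · intro e
    exact hzt1 (congrArg Subtype.val e).symm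
  · ext t
    simp only [Set.mem_insert_iff, Set.mem_singleton_iff, Set.mem_univ, iff_true]
    rcases (hcent t.1).mp t.2 with e | e
    · exact Or.inl (Subtype.ext e)
    · exact Or.inr (Subtype.ext e)

/-- Subgroups with small centre. -/
theorem es_sub {Q R : Subgroup G} {z : G} (E : ES Q z) (hRQ : R ≤ Q) (hzR : z ∈ R)
    (hc : ∀ r ∈ R, (∀ s ∈ R, s * r = r * s) → r = 1 ∨ r = z) : ES R z :=
  ⟨hzR, E.z_ne, E.z_sq, fun q hq => E.z_central q (hRQ hq), fun a ha b hb => E.comm a (hRQ ha) b (hRQ hb),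
    fun a ha => E.sq a (hRQ ha), hc⟩

/-- Coprime action on a large extraspecial subgroup. -/
theorem coprime_large [Finite G] {Q A : Subgroup G} (hQ : IsLargeExtraspecial Q) (hA : A ≤ normalizer (Q : Set G))
    (hAodd : Odd (Nat.card ↥A)) (hA1 : A ≠ ⊥) :
    (Q ⊓ centralizer (A : Set G)) ⊔ ⁅Q, A⁆ = Q ∧ (∀ x ∈ Q ⊓ centralizer (A : Set G), ∀ y ∈ ⁅Q, A⁆, x * y = y * x) ∧
      IsExtraspecial 2 ↥⁅Q, A⁆ ∧ (Q ⊓ centralizer (A : Set G) = Zd Q ∨ IsExtraspecial 2 ↥(Q ⊓ centralizer (A : Set G))) := by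
  obtain ⟨hE, hL2, hL3, _⟩ := hQ
  obtain ⟨z, E, hz⟩ := exists_es hE
  have S := LX.of_hyp E hz hL2 hL3
  have hp : IsPGroup 2 Q := hE.1.1
  haveI : Fact (Nat.Prime 2) := ⟨Nat.prime_two⟩
  have hCA : Coprime.CoprimeAction A Q := by
    refine ⟨hA, ?_, Or.inr ?_⟩
    · obtain ⟨n, hn⟩ := (IsPGroup.iff_card (p := 2) (G := Q)).mp hp
      rw [hn]
      exact Nat.Coprime.pow_right _ hAodd.coprime_two_right
    · haveI : Group.IsNilpotent ↥Q := hp.isNilpotent
      infer_instance
  have hAz : ∀ a ∈ A, a * z = z * a := by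
    intro a ha
    have h1 : a * z * a⁻¹ ∈ Q := (Subgroup.mem_normalizer_iff.mp (hA ha) z).mp E.z_mem
    have h2 : ∀ q ∈ Q, q * (a * z * a⁻¹) = (a * z * a⁻¹) * q := by
      intro q hq
      have h3 : a⁻¹ * q * a ∈ Q := by
        have := (Subgroup.mem_normalizer_iff.mp (hA (A.inv_mem ha)) q).mp hq
        rwa [inv_inv] at this
      have h4 := E.z_central _ h3
      calc q * (a * z * a⁻¹) = a * ((a⁻¹ * q * a) * z) * a⁻¹ := by group
        _ = a * (z * (a⁻¹ * q * a)) * a⁻¹ := by rw [h4]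
        _ = (a * z * a⁻¹) * q := by group
    rcases E.center _ h1 h2 with h5 | h5
    · exfalso
      apply E.z_ne
      have e : z = a⁻¹ * (a * z * a⁻¹) * a := by group
      rw [e, h5]
      group
    · calc a * z = (a * z * a⁻¹) * a := by group
        _ = z * a := by rw [h5]
  have hZdA : ⁅Zd Q, A⁆ = ⊥ := by
    rw [Subgroup.commutator_eq_bot_iff_le_centralizer]
    intro b hb
    refine Subgroup.mem_centralizer_iff.mpr fun a ha => ?_
    rcases (hz b).mp hb with rfl | rfl
    · simp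
    · exact hAz a ha
  have hzZ : z ∈ Zd Q := (hz z).mpr (Or.inr rfl)
  have hCommZ : ∀ a ∈ Q, ∀ b ∈ Q, ⁅a, b⁆ ∈ Zd Q := by
    intro a ha b hb
    rw [commutatorElement_def]
    rcases E.comm a ha b hb with e | e <;> rw [e]
    · exact (Zd Q).one_mem
    · exact hzZ
  let C : Subgroup G := Q ⊓ centralizer (A : Set G)
  have hCQ : C ≤ Q := inf_le_left
  have hzC : z ∈ C := Subgroup.mem_inf.mpr ⟨E.z_mem, Subgroup.mem_centralizer_iff.mpr fun a ha => hAz a ha⟩
  have hHQ : ⁅Q, A⁆ ≤ Q := hCA.commutator_le_self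
  have hrot : ⁅⁅Q, A⁆, C⁆ = ⊥ := by
    apply Subgroup.commutator_commutator_eq_bot_of_rotate
    · have h1 : ⁅A, C⁆ = ⊥ := by
        rw [Subgroup.commutator_eq_bot_iff_le_centralizer]
        intro a ha
        refine Subgroup.mem_centralizer_iff.mpr fun c hc => ?_
        exact (Subgroup.mem_centralizer_iff.mp (Subgroup.mem_inf.mp hc).2 a ha).symm
      rw [h1, Subgroup.commutator_bot_left]
    · have h1 : ⁅C, Q⁆ ≤ Zd Q := by
        rw [Subgroup.commutator_le]
        intro c hc q hq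
        exact hCommZ c (hCQ hc) q hq
      exact le_bot_iff.mp ((Subgroup.commutator_mono h1 le_rfl).trans hZdA.le)
  have hcomm : ∀ x ∈ C, ∀ y ∈ ⁅Q, A⁆, x * y = y * x := by
    intro x hx y hy
    have h1 := Subgroup.commutator_eq_bot_iff_le_centralizer.mp hrot hy
    exact Subgroup.mem_centralizer_iff.mp h1 x hx
  -- elements commuting with both factors are central
  have hcen : ∀ r ∈ Q, (∀ c ∈ C, c * r = r * c) → (∀ h ∈ ⁅Q, A⁆, h * r = r * h) → r = 1 ∨ r = z := by
    intro r hr h1 h2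
    apply E.center r hr
    intro q hq
    obtain ⟨n, hn, c, hc, rfl⟩ := hCA.exists_commutator_mul_centralizer hq
    calc n * c * r = n * (c * r) := by group
      _ = n * (r * c) := by rw [h1 c hc]
      _ = (n * r) * c := by group
      _ = (r * n) * c := by rw [h2 n hn]
      _ = r * (n * c) := by group
  have hsup : (Q ⊓ centralizer (A : Set G)) ⊔ ⁅Q, A⁆ = Q := by
    rw [sup_comm]
    exact hCA.commutator_sup_centralizer
  have hHne : ⁅Q, A⁆ ≠ ⊥ := by
    intro h
    apply hA1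
    rw [Subgroup.eq_bot_iff_forall]
    intro a ha
    have h1 : ∀ q ∈ Q, a * q = q * a := by
      intro q hq
      have h2 : ⁅q, a⁆ = 1 := by
        have h3 := Subgroup.commutator_mem_commutator hq ha
        rwa [h, Subgroup.mem_bot] at h3
      rw [commutatorElement_eq_one_iff_mul_comm] at h2
      exact h2.symm
    rcases S.cQ a h1 with e | e
    · exact e
    · exact eq_one_of_odd_two hAodd hp ha (e ▸ E.z_mem)
  have hzH : z ∈ ⁅Q, A⁆ := by
    obtain ⟨h, hh, hh1⟩ := (Subgroup.bot_or_exists_ne_one ⁅Q, A⁆).resolve_left hHne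
    by_cases hhz : h = z
    · exact hhz ▸ hh
    · obtain ⟨b, hb, hbh⟩ := ES'.exists_noncomm E (hHQ hh) hh1 hhz
      have h1 := ES'.comm_eq E hb (hHQ hh) hbh
      rw [← h1]
      exact Subgroup.mul_mem _ ((Subgroup.mem_normalizer_iff.mp (hCA.le_normalizer_commutator' hb) h).mp hh)
        (Subgroup.inv_mem _ hh)
  have hHcen : ∀ r ∈ ⁅Q, A⁆, (∀ s ∈ ⁅Q, A⁆, s * r = r * s) → r = 1 ∨ r = z := by
    intro r hr h1
    exact hcen r (hHQ hr) (fun c hc => hcomm c hc r hr) h1
  have hCcen : ∀ r ∈ C, (∀ s ∈ C, s * r = r * s) → r = 1 ∨ r = z := by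
    intro r hr h1
    exact hcen r (hCQ hr) h1 (fun h hh => (hcomm r hr h hh).symm)
  have hH : IsExtraspecial 2 ↥⁅Q, A⁆ := by
    refine ES.isExtraspecial (es_sub E hHQ hzH hHcen) ?_
    by_contra hc
    push Not at hc
    apply hHne
    have h1 : ⁅Q, A⁆ ≤ Zd Q := by
      intro r hr
      exact (hz r).mpr (hHcen r hr fun s hs => hc s hs r hr)
    have h2 : ⁅⁅Q, A⁆, A⁆ = ⊥ := le_bot_iff.mp ((Subgroup.commutator_mono h1 le_rfl).trans hZdA.le)
    exact hCA.commutator_eq_bot_of_commutator_commutator h2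
  refine ⟨hsup, hcomm, hH, ?_⟩
  by_cases hc : ∃ a ∈ C, ∃ b ∈ C, a * b ≠ b * a
  · exact Or.inr (ES.isExtraspecial (es_sub E hCQ hzC hCcen) hc)
  · push Not at hc
    left
    apply le_antisymm
    · intro r hr
      exact (hz r).mpr (hCcen r hr fun s hs => hc s hs r hr)
    · intro r hr
      rcases (hz r).mp hr with rfl | rfl
      · exact C.one_mem
      · exact hzC

end Cfsg.Agent.Lib.LargeX
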